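import Cfsg.Agent.Char.DefectZero
import Cfsg.Agent.Block.Degrees

/-!
# The sum of a character over the `p`-elements is divisible by the order of a Sylow subgroup
-/

set_option autoImplicit false
set_option linter.style.haveILetI false
set_option linter.unusedSectionVars false

open Cfsg
open scoped ComplexConjugate

namespace Cfsg.Agent.BlocksChar

universe u

variable {G : Type u} [Group G] [Fintype G] {p : ℕ}

/-- The indicator of the `p`-elements, times the `p'`-part of the order, is a generalised
character. -/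
theorem genChar_pElements (hp : p.Prime) :
    IsGeneralizedCharacter G (fun g : G =>
      if orderOf g ∣ p ^ (Nat.card G).factorization p then
        ((Nat.card G / p ^ (Nat.card G).factorization p : ℕ) : ℂ) else 0) := by
  classical
  haveI : Fact p.Prime := ⟨hp⟩
  set m := Nat.card G / p ^ (Nat.card G).factorization p with hm
  refine Cfsg.Agent.S0164.result _ (fun g h => ?_) fun E q hq hE => ?_
  · have ho : orderOf (h * g * h⁻¹) = orderOf g := (MulAut.conj h).orderOf_eq g
    show (if orderOf (h * g * h⁻¹) ∣ _ then (m : ℂ) else 0) = _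
    rw [ho]
  letI := Fintype.ofFinite E
  haveI := Char.isNilpotent_of_isElementary hq hE
  obtain ⟨A, B, hB, hcard⟩ := Char.exists_pRegular_subgroup (E := E) p
  letI := Fintype.ofFinite (A : Subgroup E)
  refine Char.isGeneralizedCharacter_iff_classInner_int.mpr ⟨fun a b => ?_, fun μ => ?_⟩
  · have ho : orderOf ((b * a * b⁻¹ : E) : G) = orderOf (a : G) := by
      rw [Subgroup.orderOf_coe, Subgroup.orderOf_coe]; exact (MulAut.conj b).orderOf_eq a
    show (if orderOf ((b * a * b⁻¹ : E) : G) ∣ _ then (m : ℂ) else 0) = _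
    rw [ho]
  haveI hAn : (A : Subgroup E).Normal := inferInstance
  have hmem : ∀ e : E, orderOf (e : G) ∣ p ^ (Nat.card G).factorization p ↔ e ∈ (A : Subgroup E) := by
    intro e
    rw [Subgroup.orderOf_coe]
    constructor
    · intro he
      obtain ⟨i, -, hi⟩ := (Nat.dvd_prime_pow hp).1 he
      have hz : IsPGroup p (Subgroup.zpowers e) := IsPGroup.of_card (by rw [Nat.card_zpowers, hi])
      obtain ⟨Q, hQ⟩ := hz.exists_le_sylow
      haveI := Sylow.unique_of_normal A hAn
      rw [Subsingleton.elim A Q]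
      exact hQ (Subgroup.mem_zpowers e)
    · intro he
      obtain ⟨i, hi⟩ := IsPGroup.iff_orderOf.1 A.isPGroup' ⟨e, he⟩
      rw [Subgroup.orderOf_mk] at hi
      rw [hi]
      refine pow_dvd_pow p ((hp.pow_dvd_iff_le_factorization Nat.card_pos.ne').1 ?_)
      rw [← hi]
      exact (orderOf_dvd_natCard e).trans (Subgroup.card_subgroup_dvd_card E)
  obtain ⟨k, hk⟩ := Char.isCharacter_classInner_nat
    (Char.isCharacter_restrict (Char.isCharacter_of_irr μ.2) (A : Subgroup E))
    (Char.trivialIrr ↥(A : Subgroup E))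
  have hS : ∑ a : (A : Subgroup E), conj ((μ : E → ℂ) a) = (Nat.card A : ℂ) * k := by
    rw [← hk, ← Char.sum_mul_conj_eq_card_mul_classInner]
    refine Fintype.sum_equiv (Equiv.inv _) _ _ fun a => ?_
    rw [← Char.irr_inv μ.2]
    simp [Char.trivialIrr]
  have hBdvd : Nat.card B ∣ m := by
    have hco : (Nat.card B).Coprime (p ^ (Nat.card G).factorization p) := by
      refine Nat.Coprime.pow_right _ ((hp.coprime_iff_not_dvd.2 fun hd => ?_).symm)
      obtain ⟨x, hx⟩ := exists_prime_orderOf_dvd_card' p hd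
      refine (hB x).1 x.2 ?_
      rw [Subgroup.orderOf_coe, hx]
    refine hco.dvd_of_dvd_mul_left ?_
    rw [hm, Nat.ordProj_mul_ordCompl_eq_self]
    exact (Subgroup.card_subgroup_dvd_card B).trans (Subgroup.card_subgroup_dvd_card E)
  obtain ⟨r, hr⟩ := hBdvd
  refine ⟨(r * k : ℕ), ?_⟩
  rw [classInner]
  calc (Nat.card E : ℂ)⁻¹ * ∑ e : E, (if orderOf (e : G) ∣ p ^ (Nat.card G).factorization p then
        (m : ℂ) else 0) * conj ((μ : E → ℂ) e)
      = (Nat.card E : ℂ)⁻¹ * ((m : ℂ) * ∑ a : (A : Subgroup E), conj ((μ : E → ℂ) a)) := by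
        congr 1
        rw [Finset.mul_sum, ← Finset.sum_subtype (Finset.univ.filter fun e : E =>
          orderOf (e : G) ∣ p ^ (Nat.card G).factorization p) (fun e => ⟨fun h => (hmem e).1 (Finset.mem_filter.1 h).2,
            fun h => Finset.mem_filter.2 ⟨Finset.mem_univ _, (hmem e).2 h⟩⟩)
          (fun e => (m : ℂ) * conj ((μ : E → ℂ) e)), Finset.sum_filter]
        simp only [ite_mul, zero_mul]
    _ = ((r * k : ℕ) : ℤ) := by
        rw [hS, ← hcard, hr]
        have h1 : (Nat.card A : ℂ) ≠ 0 := Nat.cast_ne_zero.2 Nat.card_pos.ne'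
        have h2 : (Nat.card B : ℂ) ≠ 0 := Nat.cast_ne_zero.2 Nat.card_pos.ne'
        push_cast
        field_simp

/-- The sum of a character over the inverses of the `p`-elements, divided by the order of a
Sylow subgroup. -/
noncomputable def pElementMean (p : ℕ) (χ : G → ℂ) : ℂ :=
  ((p ^ (Nat.card G).factorization p : ℕ) : ℂ)⁻¹ *
    ∑ u : G, if orderOf u ∣ p ^ (Nat.card G).factorization p then χ u⁻¹ else 0

theorem exists_int_pElementMean (hp : p.Prime) (χ : IrrCharacter G) :
    ∃ k : ℤ, pElementMean p (χ : G → ℂ) = k := by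
  classical
  obtain ⟨k, hk⟩ := CharInd.genChar_inner_int (genChar_pElements (G := G) hp) χ.2
  refine ⟨k, ?_⟩
  rw [← hk, pElementMean, classInner, Finset.mul_sum, Finset.mul_sum]
  refine Finset.sum_congr rfl fun u _ => ?_
  have hc : (Nat.card G : ℂ) = ((p ^ (Nat.card G).factorization p : ℕ) : ℂ) *
      ((Nat.card G / p ^ (Nat.card G).factorization p : ℕ) : ℂ) := by
    rw [← Nat.cast_mul, Nat.ordProj_mul_ordCompl_eq_self]
  split_ifs
  · rw [Char.irr_inv χ.2, hc]
    have h2 : ((Nat.card G / p ^ (Nat.card G).factorization p : ℕ) : ℂ) ≠ 0 :=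
      Nat.cast_ne_zero.2 (Nat.ordCompl_pos p Nat.card_pos.ne').ne'
    field_simp
  · simp

end Cfsg.Agent.BlocksChar
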