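import Cfsg.Agent.BlocksChar.DefectZero
import Mathlib.RepresentationTheory.Invariants

/-!
# Coprime trivial-intersection action and characters of small degree
-/

set_option autoImplicit false
set_option linter.style.haveILetI false
set_option linter.unusedSectionVars false

open scoped ComplexConjugate
open Module

namespace Cfsg.Agent.BlocksChar

universe u

variable {G : Type u} [Group G] [Finite G]

/-- A sum over a set on which `P` acts freely by conjugation is a multiple of `|P|`. -/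
theorem sum_free_orbits [Fintype G] (P : Subgroup G) {f : G → ℂ}
    (hf : ∀ x ∈ P, ∀ t, f (x * t * x⁻¹) = f t) (hint : ∀ t, IsIntegral ℤ (f t)) :
    ∀ T : Finset G, (∀ x ∈ P, ∀ t ∈ T, x * t * x⁻¹ ∈ T) →
      (∀ x ∈ P, ∀ t ∈ T, x * t * x⁻¹ = t → x = 1) →
      ∃ z : ℂ, IsIntegral ℤ z ∧ ∑ t ∈ T, f t = (Nat.card P : ℂ) * z := by
  classical
  letI := Fintype.ofFinite P
  intro T
  induction T using Finset.strongInduction with
  | _ T ih =>
    intro hinv hfree
    rcases T.eq_empty_or_nonempty with rfl | ⟨t, ht⟩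
    · exact ⟨0, isIntegral_zero, by simp⟩
    set O := (Finset.univ : Finset P).image fun x : P => (x : G) * t * (x : G)⁻¹ with hO
    have hOT : O ⊆ T := by
      intro y hy
      obtain ⟨x, -, rfl⟩ := Finset.mem_image.mp hy
      exact hinv x x.2 t ht
    have htO : t ∈ O := Finset.mem_image.mpr ⟨1, Finset.mem_univ _, by simp⟩
    have hinj : Function.Injective fun x : P => (x : G) * t * (x : G)⁻¹ := by
      intro a b hab
      refine Subtype.ext (inv_mul_eq_one.mp (hfree _ (P.mul_mem (P.inv_mem a.2) b.2) t ht ?_))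
      simp only at hab
      calc (a : G)⁻¹ * b * t * ((a : G)⁻¹ * b)⁻¹ = (a : G)⁻¹ * (b * t * (b : G)⁻¹) * a := by group
        _ = _ := by rw [← hab]; group
    obtain ⟨z, hz, hsum⟩ := ih (T \ O) (Finset.sdiff_ssubset hOT ⟨t, htO⟩)
      (fun x hx y hy => by
        obtain ⟨hyT, hyO⟩ := Finset.mem_sdiff.mp hy
        refine Finset.mem_sdiff.mpr ⟨hinv x hx y hyT, fun h => hyO ?_⟩
        obtain ⟨w, -, hw⟩ := Finset.mem_image.mp h
        refine Finset.mem_image.mpr ⟨⟨x⁻¹ * w, P.mul_mem (P.inv_mem hx) w.2⟩, Finset.mem_univ _, ?_⟩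
        calc x⁻¹ * (w : G) * t * (x⁻¹ * (w : G))⁻¹ = x⁻¹ * ((w : G) * t * (w : G)⁻¹) * x := by group
          _ = y := by rw [hw]; group)
      (fun x hx y hy => hfree x hx y (Finset.mem_sdiff.mp hy).1)
    refine ⟨z + f t, hz.add (hint t), ?_⟩
    rw [← Finset.sum_sdiff hOT, hsum, Finset.sum_congr rfl (g := fun _ => f t) fun y hy => by
      obtain ⟨x, -, rfl⟩ := Finset.mem_image.mp hy
      exact hf x x.2 t]
    rw [Finset.sum_const, Finset.card_image_of_injective _ hinj, Finset.card_univ,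
      ← Nat.card_eq_fintype_card, nsmul_eq_mul]
    ring

/-- A `p`-group acting coprimely on `N` with all fixed-point subgroups equal centralises `N` in
every representation of degree at most the square root of its order. -/
theorem map_conj_eq_of_small_degree (P N : Subgroup G) (hPN : ∀ x ∈ P, ∀ n ∈ N, x * n * x⁻¹ ∈ N)
    (hcop : (Nat.card N).Coprime (Nat.card P))
    (hfix : ∀ y ∈ P, y ≠ 1 → ∀ n ∈ N, y * n * y⁻¹ = n → ∀ x ∈ P, x * n * x⁻¹ = n)
    {d : ℕ} (ρ : Representation ℂ G (Fin d → ℂ)) (hd : d ^ 2 ≤ Nat.card P) :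
    ∀ x ∈ P, ∀ n ∈ N, ρ (x * n * x⁻¹) = ρ n := by
  classical
  letI := Fintype.ofFinite G
  rcases Nat.eq_zero_or_pos d with rfl | hd0
  · intro x _ n _
    exact Subsingleton.elim _ _
  set C : Subgroup G := N ⊓ Subgroup.centralizer (P : Set G) with hC
  letI := Fintype.ofFinite N
  letI := Fintype.ofFinite C
  let ρN : Representation ℂ N (Fin d → ℂ) := ρ.comp N.subtype
  let ρC : Representation ℂ C (Fin d → ℂ) := ρ.comp C.subtype
  set f : G → ℂ := fun t => ρ.character t⁻¹ * ρ.character t with hf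
  have hfx : ∀ x ∈ P, ∀ t, f (x * t * x⁻¹) = f t := by
    intro x _ t
    simp only [hf, show (x * t * x⁻¹)⁻¹ = x * t⁻¹ * x⁻¹ by group]
    rw [ρ.char_conj, ρ.char_conj]
  have hfi : ∀ t, IsIntegral ℤ (f t) := fun t =>
    (Char.character_isIntegral ρ _).mul (Char.character_isIntegral ρ _)
  set IN := Representation.invariants (ρN.linHom ρN) with hIN
  set IC := Representation.invariants (ρC.linHom ρC) with hIC
  haveI hnN : NeZero (Nat.card N : ℂ) := ⟨Nat.cast_ne_zero.mpr Nat.card_pos.ne'⟩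
  haveI hnC : NeZero (Nat.card C : ℂ) := ⟨Nat.cast_ne_zero.mpr Nat.card_pos.ne'⟩
  haveI : Invertible (Nat.card N : ℂ) := invertibleOfNonzero hnN.out
  haveI : Invertible (Nat.card C : ℂ) := invertibleOfNonzero hnC.out
  have hsN : ∑ t ∈ Finset.univ.filter (· ∈ N), f t = (Nat.card N : ℂ) * finrank ℂ IN := by
    have h := Representation.card_inv_mul_sum_char_eq_finrank (ρN.linHom ρN)
    rw [← hIN] at h
    rw [← h, mul_inv_cancel_left₀ hnN.out,
      Finset.sum_subtype (p := fun t : G => t ∈ N) _ (fun t => by simp)]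
    refine Finset.sum_congr rfl fun t _ => ?_
    rw [Representation.char_linHom]
    rfl
  have hsC : ∑ t ∈ Finset.univ.filter (· ∈ C), f t = (Nat.card C : ℂ) * finrank ℂ IC := by
    have h := Representation.card_inv_mul_sum_char_eq_finrank (ρC.linHom ρC)
    rw [← hIC] at h
    rw [← h, mul_inv_cancel_left₀ hnC.out,
      Finset.sum_subtype (p := fun t : G => t ∈ C) _ (fun t => by simp)]
    refine Finset.sum_congr rfl fun t _ => ?_
    rw [Representation.char_linHom]
    rfl
  set T := Finset.univ.filter (· ∈ N) \ Finset.univ.filter (· ∈ C) with hT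
  have hmemC : ∀ t ∈ T, t ∈ N ∧ ∃ x ∈ P, x * t * x⁻¹ ≠ t := by
    intro t ht
    simp only [hT, Finset.mem_sdiff, Finset.mem_filter, Finset.mem_univ, true_and] at ht
    refine ⟨ht.1, ?_⟩
    by_contra hc
    push Not at hc
    refine ht.2 ⟨ht.1, fun x hx => ?_⟩
    have := hc x hx
    rwa [mul_inv_eq_iff_eq_mul] at this
  have hTinv : ∀ x ∈ P, ∀ t ∈ T, x * t * x⁻¹ ∈ T := by
    intro x hx t ht
    obtain ⟨htN, y, hy, hyt⟩ := hmemC t ht
    simp only [hT, Finset.mem_sdiff, Finset.mem_filter, Finset.mem_univ, true_and]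
    refine ⟨hPN x hx t htN, fun h => hyt ?_⟩
    have h1 : ∀ z ∈ P, z * (x * t * x⁻¹) * z⁻¹ = x * t * x⁻¹ := fun z hz => by
      rw [h.2 z hz, mul_inv_cancel_right]
    have ht' : x⁻¹ * (x * t * x⁻¹) * x = x * t * x⁻¹ := by
      simpa using h1 x⁻¹ (P.inv_mem hx)
    have ht'' : t = x * t * x⁻¹ := by
      rw [← ht']; group
    rw [ht'']
    exact h1 y hy
  have hTfree : ∀ x ∈ P, ∀ t ∈ T, x * t * x⁻¹ = t → x = 1 := by
    intro x hx t ht hxt
    by_contra hx1
    obtain ⟨htN, y, hy, hyt⟩ := hmemC t ht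
    exact hyt (hfix x hx hx1 t htN hxt y hy)
  have hsub : Finset.univ.filter (· ∈ C) ⊆ Finset.univ.filter (· ∈ N) := fun t ht => by
    simp only [Finset.mem_filter, Finset.mem_univ, true_and] at ht ⊢
    exact ht.1
  obtain ⟨z, hz, hzsum⟩ := sum_free_orbits P hfx hfi T hTinv hTfree
  obtain ⟨z', hz', hzsum'⟩ := sum_free_orbits P (f := fun _ => (1 : ℂ)) (fun _ _ _ => rfl)
    (fun _ => isIntegral_one) T hTinv hTfree
  have e1 : (Nat.card N : ℂ) * finrank ℂ IN - (Nat.card C : ℂ) * finrank ℂ IC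
      = (Nat.card P : ℂ) * z := by
    rw [← hsN, ← hsC, ← hzsum, hT, ← Finset.sum_sdiff hsub]; ring
  have e2 : (Nat.card N : ℂ) - (Nat.card C : ℂ) = (Nat.card P : ℂ) * z' := by
    rw [← hzsum', hT]
    have hcN : ((Finset.univ.filter (· ∈ N)).card : ℂ) = Nat.card N := by
      rw [Nat.card_eq_fintype_card, Fintype.card_subtype]
    have hcC : ((Finset.univ.filter (· ∈ C)).card : ℂ) = Nat.card C := by
      rw [Nat.card_eq_fintype_card, Fintype.card_subtype]
    rw [← hcN, ← hcC, Finset.sum_const, nsmul_eq_mul, mul_one,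
      Finset.card_sdiff_of_subset hsub, Nat.cast_sub (Finset.card_le_card hsub)]
  have hle : finrank ℂ IN ≤ finrank ℂ IC := Submodule.finrank_mono fun T hT => by
    rw [Representation.mem_invariants] at hT ⊢
    exact fun c => hT ⟨c, c.2.1⟩
  have hub : finrank ℂ IC ≤ d ^ 2 := by
    refine (Submodule.finrank_le IC).trans ?_
    rw [Module.finrank_linearMap, finrank_fin_fun, sq]
  have hpos : 0 < finrank ℂ IN := by
    haveI : Nonempty (Fin d) := ⟨⟨0, hd0⟩⟩
    have hid : (LinearMap.id : (Fin d → ℂ) →ₗ[ℂ] (Fin d → ℂ)) ∈ IN := by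
      rw [hIN, Representation.mem_invariants]
      intro n
      show ρN n ∘ₗ LinearMap.id ∘ₗ ρN n⁻¹ = LinearMap.id
      rw [LinearMap.id_comp]
      show ρN n * ρN n⁻¹ = 1
      rw [← map_mul, mul_inv_cancel, map_one]
    rw [Nat.pos_iff_ne_zero, ne_eq, Submodule.finrank_eq_zero]
    intro hb
    rw [hb, Submodule.mem_bot] at hid
    have := LinearMap.congr_fun hid (fun _ => 1)
    exact one_ne_zero (congrFun this ⟨0, hd0⟩)
  have key : ((Nat.card C * (finrank ℂ IC - finrank ℂ IN) : ℕ) : ℂ)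
      = (Nat.card P : ℂ) * ((finrank ℂ IN : ℂ) * z' - z) := by
    rw [Nat.cast_mul, Nat.cast_sub hle]
    linear_combination (finrank ℂ IN : ℂ) * e2 - e1
  have hdvd := nat_dvd_of_eq_mul_integral
    (((isIntegral_algebraMap (R := ℤ) (x := (_ : ℤ))).mul hz').sub hz) key
  have hdvd' : Nat.card P ∣ finrank ℂ IC - finrank ℂ IN :=
    (Nat.Coprime.coprime_dvd_left (Subgroup.card_dvd_of_le inf_le_left) hcop).symm.dvd_of_dvd_mul_left hdvd
  have heq : finrank ℂ IC - finrank ℂ IN = 0 :=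
    Nat.eq_zero_of_dvd_of_lt hdvd' (by omega)
  have hII : IN = IC := by
    have hle' : IN ≤ IC := fun T hT => by
      rw [hIN, Representation.mem_invariants] at hT
      rw [hIC, Representation.mem_invariants]
      exact fun c => hT ⟨c, c.2.1⟩
    exact Submodule.eq_of_le_of_finrank_eq hle' (by omega)
  intro x hx n hn
  have hxC : ρ x ∈ IC := by
    rw [hIC, Representation.mem_invariants]
    intro c
    show ρ c * (ρ x * ρ (c : G)⁻¹) = ρ x
    rw [← map_mul, ← map_mul]
    congr 1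
    rw [← mul_assoc, ← c.2.2 x hx, mul_assoc, mul_inv_cancel, mul_one]
  rw [← hII, hIN, Representation.mem_invariants] at hxC
  have h : ρ n * (ρ x * ρ n⁻¹) = ρ x := hxC ⟨n, hn⟩
  rw [← map_mul, ← map_mul] at h
  calc ρ (x * n * x⁻¹) = ρ x * ρ (n * x⁻¹) := by rw [← map_mul, mul_assoc]
    _ = ρ (n * (x * n⁻¹)) * ρ (n * x⁻¹) := by rw [h]
    _ = ρ n := by rw [← map_mul]; group

end Cfsg.Agent.BlocksChar
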